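/-
A 2-group with a dihedral group `⟨f, τ⟩` of operators, `f²` fixed point free and
`(τ y * y)² = 1` for all `y`, is elementary abelian.
-/
import Cfsg.Agent.Lib.Core.Baer
import Cfsg.Agent.Lib.Core.Syl

set_option autoImplicit false

namespace Cfsg.Agent.Lib.C4

open Subgroup Cfsg.Agent.Lib.Core
open scoped commutatorElement

section Add
variable {M : Type*} [AddCommGroup M] [Finite M] {f τ : M →+ M}

theorem add_surj (h2 : ∀ m : M, m + m = 0) {g : M →+ M} (hg : ∀ m, g m = m → m = 0) (v : M) :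
    ∃ u, u + g u = v := by
  refine Finite.surjective_of_injective (f := fun u => u + g u) (fun a b e => ?_) v
  have e' : a + g a = b + g b := e
  have := hg (a - b) (by
    rw [map_sub]; linear_combination (norm := abel) e' - h2 a + h2 b)
  exact sub_eq_zero.1 this

variable (h2 : ∀ m : M, m + m = 0) (hτ : ∀ m, τ (τ m) = m) (hf : ∀ m, f (τ (f m)) = τ m)
  (hff : ∀ m, f (f m) = m → m = 0)
include h2 hτ hf hff

theorem addA {v : M} (hv : τ v = v) : ∃ u, v = τ u + u := by
  obtain ⟨u, hu⟩ := add_surj h2 (g := f) (fun m e => hff m (by rw [e, e])) v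
  have e1 : τ u + τ (f u) = v := by rw [← map_add, hu, hv]
  have e2 : f (τ u) + τ u = f u + f (f u) := by
    have := congrArg f e1
    rw [map_add, hf, ← hu, map_add] at this
    exact this
  have e3 : τ u - f u = 0 := hff _ (by
    have : f (τ u - f u) = τ u - f u := by
      rw [map_sub]; linear_combination (norm := abel) e2 - h2 (τ u) + h2 (f u)
    rw [this, this])
  exact ⟨u, by linear_combination (norm := abel) -hu - e3⟩

theorem addB (v : M) : ∃ a b, τ a = a ∧ τ b = b ∧ v = a + f b := by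
  obtain ⟨c, hc⟩ := add_surj h2 (g := f.comp f) hff (v + τ v)
  simp only [AddMonoidHom.comp_apply] at hc
  have e1 : τ c + τ (f (f c)) = v + τ v := by rw [← map_add, hc, map_add, hτ, add_comm]
  have e2 : f (τ c) + τ (f c) = f c + f (f (f c)) := by
    have := congrArg f (e1.trans hc.symm)
    rw [map_add, hf, map_add] at this
    exact this
  have e3 : f (f (τ (f c))) = f (τ c) := by rw [hf]
  have e4 : τ (f c) - f c = 0 := hff _ (by
    rw [map_sub, map_sub, e3]
    linear_combination (norm := abel) e2 - h2 (τ (f c)) + h2 (f c))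
  have e5 : τ (f c) = f c := sub_eq_zero.1 e4
  have e6 : τ (f (f c)) = c := by
    have : f (τ (f (f c))) = f c := by rw [hf, e5]
    have h3 := congrArg (fun x => τ (f (τ x))) this
    have k : ∀ m, τ (f (τ (f m))) = m := fun m => by rw [hf, hτ]
    simpa only [k] using h3
  refine ⟨v + f (f c), f c, ?_, e5, ?_⟩
  · rw [map_add, e6]; linear_combination (norm := abel) hc + h2 (τ v) - h2 (f (f c))
  · linear_combination (norm := abel) -h2 (f (f c))

omit [Finite M] hff in
theorem addC {b : M} (hb : τ b = b) : ∃ c, τ c = c ∧ f (f b) = b + f c := by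
  refine ⟨f b + τ (f b), by rw [map_add, hτ, add_comm], ?_⟩
  rw [map_add, hf, hb]; linear_combination (norm := abel) -h2 b

end Add

universe u

theorem elem_aux (n : ℕ) : ∀ (D : Type u) [Group D] [Finite D], Nat.card D < n → IsPGroup 2 D →
    ∀ f τ : D →* D, (∀ y, τ (τ y) = y) → (∀ y, f (τ (f y)) = τ y) → (∀ y, f (f y) = y → y = 1) →
    (∀ y, τ y * y * (τ y * y) = 1) → ∀ y : D, y * y = 1 := by
  induction n with
  | zero => intro D _ _ h; omega
  | succ n ih =>
  intro D _ _ hn hD f τ hτ hf hff hs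
  rcases subsingleton_or_nontrivial D with h | h
  · intro y; exact Subsingleton.elim _ _
  have fs : Function.Surjective f := fun y => ⟨τ (f (τ y)), by rw [hf, hτ]⟩
  have τs : Function.Surjective τ := fun y => ⟨τ y, hτ y⟩
  let Z : Subgroup D :=
    { carrier := {z | z ∈ center D ∧ z * z = 1}
      one_mem' := ⟨one_mem _, mul_one 1⟩
      mul_mem' := fun {a b} ha hb => ⟨mul_mem ha.1 hb.1, by
        rw [mul_assoc, ← mul_assoc b, mem_center_iff.1 ha.1 b, mul_assoc, hb.2, mul_one, ha.2]⟩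
      inv_mem' := fun {a} ha => ⟨inv_mem ha.1, by rw [← mul_inv_rev, ha.2, inv_one]⟩ }
  have mZ : ∀ z, z ∈ Z ↔ z ∈ center D ∧ z * z = 1 := fun _ => Iff.rfl
  haveI : Z.Normal := ⟨fun z hz g => by
    rw [mem_center_iff.1 hz.1 g, mul_inv_cancel_right]; exact hz⟩
  have inv : ∀ g : D →* D, Function.Surjective g → Z ≤ Z.comap g := fun g hg z hz =>
    ⟨mem_center_iff.2 fun y => by
      obtain ⟨y, rfl⟩ := hg y
      rw [← map_mul, mem_center_iff.1 hz.1 y, map_mul], by rw [← map_mul, hz.2, map_one]⟩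
  have Z1 : Z ≠ ⊥ := by
    have := hD.center_nontrivial
    obtain ⟨⟨c, hc⟩, c1⟩ := exists_ne (1 : center D)
    obtain ⟨k, hk⟩ := IsPGroup.iff_orderOf.1 hD c
    have k0 : k ≠ 0 := by
      rintro rfl; exact c1 (Subtype.ext (orderOf_eq_one_iff.1 hk))
    obtain ⟨k, rfl⟩ := Nat.exists_eq_succ_of_ne_zero k0
    intro e
    have m : c ^ 2 ^ k ∈ Z := ⟨pow_mem hc _, by
      rw [← pow_add, ← two_mul, ← pow_succ', ← hk, pow_orderOf_eq_one]⟩
    rw [e, mem_bot] at m
    have := Nat.le_of_dvd (by positivity) (orderOf_dvd_of_pow_eq_one m)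
    rw [hk, Nat.pow_le_pow_iff_right (by norm_num)] at this
    omega
  let π := QuotientGroup.mk' Z
  have πs : Function.Surjective π := QuotientGroup.mk'_surjective Z
  let F := QuotientGroup.map Z Z f (inv f fs)
  let T := QuotientGroup.map Z Z τ (inv τ τs)
  have hF : ∀ y, F (π y) = π (f y) := fun _ => rfl
  have hT : ∀ y, T (π y) = π (τ y) := fun _ => rfl
  have kπ : ∀ y, π y = 1 ↔ y ∈ Z := fun y => QuotientGroup.eq_one_iff y
  have eπ : ∀ y y', π y = π y' → ∃ z ∈ Z, y = y' * z := fun y y' e =>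
    ⟨y'⁻¹ * y, (kπ _).1 (by rw [map_mul, map_inv, e, inv_mul_cancel]), by group⟩
  have qτ : ∀ m, T (T m) = m := fun m => by obtain ⟨y, rfl⟩ := πs m; rw [hT, hT, hτ]
  have qf : ∀ m, F (T (F m)) = T m := fun m => by
    obtain ⟨y, rfl⟩ := πs m; rw [hF, hT, hF, hf, hT]
  have qff : ∀ m, F (F m) = m → m = 1 := fun m e => by
    obtain ⟨y, rfl⟩ := πs m
    have inj : Function.Injective fun y : D => y⁻¹ * f (f y) := fun a b e => by
      have e' : a⁻¹ * f (f a) = b⁻¹ * f (f b) := e
      have := hff (a * b⁻¹) (by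
        rw [map_mul, map_mul, map_inv, map_inv]
        calc _ = a * (a⁻¹ * f (f a)) * (f (f b))⁻¹ := by group
          _ = _ := by rw [e']; group)
      exact mul_inv_eq_one.1 this
    obtain ⟨z, hz⟩ := Finite.surjective_of_injective
      (f := fun z : Z => (⟨z.1⁻¹ * f (f z), mul_mem (inv_mem z.2)
        (inv f fs (inv f fs z.2))⟩ : Z)) (fun a b e => Subtype.ext (inj (congrArg Subtype.val e)))
      ⟨y⁻¹ * f (f y), (kπ _).1 (by rw [map_mul, map_inv, ← hF, ← hF, e, inv_mul_cancel])⟩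
    rw [kπ, ← inj (congrArg Subtype.val hz)]; exact z.2
  have q2 : ∀ m : D ⧸ Z, m * m = 1 := ih (D ⧸ Z) (by
      have h1 := card_eq_card_quotient_mul_card_subgroup Z
      have h2 := (one_lt_card_iff_ne_bot Z).2 Z1
      have h3 : 0 < Nat.card (D ⧸ Z) := Nat.card_pos
      nlinarith) (hD.to_quotient Z) F T qτ qf qff (fun m => by
      obtain ⟨y, rfl⟩ := πs m
      rw [hT, ← map_mul, ← map_mul, hs, map_one])
  have qc : ∀ a b : D ⧸ Z, a * b = b * a := fun a b => by
    rw [← inv_eq_of_mul_eq_one_right (q2 (a * b)), mul_inv_rev, inv_eq_of_mul_eq_one_right (q2 a),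
      inv_eq_of_mul_eq_one_right (q2 b)]
  letI : CommGroup (D ⧸ Z) := { (inferInstance : Group (D ⧸ Z)) with mul_comm := qc }
  have cZ : ∀ x y : D, ⁅x, y⁆ ∈ Z := fun x y => (kπ _).1 (by
    rw [map_commutatorElement, commutatorElement_eq_one_iff_mul_comm, qc])
  have hc : ∀ x y : D, ⁅x, y⁆ ∈ center D := fun x y => (cZ x y).1
  have zsq : ∀ z ∈ Z, ∀ y : D, y * z * (y * z) = y * y := fun z hz y => by
    calc _ = y * (z * y) * z := by group
      _ = y * y * (z * z) := by rw [← mem_center_iff.1 hz.1]; group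
      _ = _ := by rw [hz.2, mul_one]
  have sq : ∀ a, T (π a) = π a → a * a = 1 := fun a ha => by
    obtain ⟨u, hu⟩ := addA (M := Additive (D ⧸ Z)) (f := MonoidHom.toAdditive F)
      (τ := MonoidHom.toAdditive T) q2 qτ qf qff (v := Additive.ofMul (π a)) ha
    obtain ⟨y, hy⟩ := πs u.toMul
    obtain ⟨z, hz, rfl⟩ := eπ a (τ y * y) (by rw [map_mul, ← hT, hy]; exact hu)
    rw [zsq z hz, hs]
  have cm : ∀ a b, T (π a) = π a → T (π b) = π b → a * b = b * a := fun a b ha hb => by
    rw [← inv_eq_of_mul_eq_one_right (sq (a * b) (by rw [map_mul, map_mul, ha, hb])), mul_inv_rev,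
      inv_eq_of_mul_eq_one_right (sq a ha), inv_eq_of_mul_eq_one_right (sq b hb)]
  have β1 : ∀ a b, T (π a) = π a → T (π b) = π b → f ⁅a, f b⁆ = ⁅b, f a⁆ := fun a b ha hb => by
    obtain ⟨c, hc1, hc2⟩ := addC (M := Additive (D ⧸ Z)) (f := MonoidHom.toAdditive F)
      (τ := MonoidHom.toAdditive T) q2 qτ qf (b := Additive.ofMul (π b)) hb
    obtain ⟨y, hy⟩ := πs c.toMul
    obtain ⟨z, hz, e⟩ := eπ (f (f b)) (b * f y) (by rw [map_mul, ← hF, ← hF, ← hF, hy]; exact hc2)
    have : ⁅f a, f y⁆ = 1 := by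
      rw [← map_commutatorElement, commutatorElement_eq_one_iff_mul_comm.2
        (cm a y ha (by rw [hy]; exact hc1)), map_one]
    rw [map_commutatorElement, e, baer_comm_mul_right hc, baer_comm_mul_right hc, this,
      baer_comm_central_right hz.1, mul_one, mul_one, ← commutatorElement_inv,
      inv_eq_of_mul_eq_one_right (cZ _ _).2]
  intro v
  obtain ⟨a, b, ha, hb, e⟩ := addB (M := Additive (D ⧸ Z)) (f := MonoidHom.toAdditive F)
      (τ := MonoidHom.toAdditive T) q2 qτ qf qff (Additive.ofMul (π v))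
  obtain ⟨x, hx⟩ := πs a.toMul
  obtain ⟨y, hy⟩ := πs b.toMul
  have ha' : T (π x) = π x := by rw [hx]; exact ha
  have hb' : T (π y) = π y := by rw [hy]; exact hb
  obtain ⟨z, hz, rfl⟩ := eπ v (x * f y) (by rw [map_mul, ← hF, hx, hy]; exact e)
  have c1 := commutatorElement_eq_one_iff_mul_comm.1
    (hff ⁅x, f y⁆ (by rw [β1 x y ha' hb', β1 y x hb' ha']))
  rw [zsq z hz, mul_assoc, ← mul_assoc (f y), ← c1, mul_assoc, ← map_mul, sq y hb', map_one,
    mul_one, sq x ha']

variable {G : Type u} [Group G] [Finite G]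

/-- conjugation on a normalised subgroup -/
def cjh {D : Subgroup G} {g : G} (hg : g ∈ normalizer (D : Set G)) : D →* D :=
  (D.normalizerMonoidHom ⟨g, hg⟩).toMonoidHom

omit [Finite G] in
theorem cjh_val {D : Subgroup G} {g : G} (hg : g ∈ normalizer (D : Set G)) (y : D) :
    (cjh hg y : G) = g * y * g⁻¹ := rfl

theorem elem {D : Subgroup G} (hD : IsPGroup 2 D) {t x : G} (ht : t ∈ normalizer (D : Set G))
    (hx : x ∈ normalizer (D : Set G)) (tt : t * t = 1) (tx : t * x * t⁻¹ = x⁻¹)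
    (hf : ∀ y ∈ D, x * x * y = y * (x * x) → y = 1) (h4 : ∀ y ∈ D, (t * y) ^ 4 = 1) :
    (∀ y ∈ D, y * y = 1) ∧ ∀ d ∈ D, t * d = d * t → ∃ u ∈ D, d = u * (t * u * t⁻¹) := by
  have ti : t⁻¹ = t := inv_eq_of_mul_eq_one_right tt
  have hτ : ∀ y, cjh ht (cjh ht y) = y := fun y => Subtype.ext (by
    rw [cjh_val, cjh_val, ti]
    calc _ = (t * t) * y * (t * t) := by group
      _ = _ := by rw [tt]; group)
  have hF : ∀ y, cjh hx (cjh ht (cjh hx y)) = cjh ht y := fun y => Subtype.ext (by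
    simp only [cjh_val]
    calc _ = x * (t * x * t⁻¹) * (t * y * t⁻¹) * (x * (t * x * t⁻¹))⁻¹ := by group
      _ = _ := by rw [tx]; group)
  have hff : ∀ y, cjh hx (cjh hx y) = y → y = 1 := fun y e => Subtype.ext (hf y y.2 (by
    have := congrArg Subtype.val e
    simp only [cjh_val] at this
    calc _ = x * (x * y * x⁻¹) * x⁻¹ * (x * x) := by group
      _ = _ := by rw [this]))
  have q2 := elem_aux _ D (Nat.lt_succ_self _) hD (cjh hx) (cjh ht) hτ hF hff fun y =>
    Subtype.ext (by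
      have := h4 y y.2
      simp only [coe_mul, cjh_val, ti, coe_one]
      rw [← this]; simp only [pow_succ, pow_zero, one_mul, mul_assoc])
  refine ⟨fun y hy => congrArg Subtype.val (q2 ⟨y, hy⟩), fun d hd e => ?_⟩
  have qc : ∀ a b : D, a * b = b * a := fun a b => by
    rw [← inv_eq_of_mul_eq_one_right (q2 (a * b)), mul_inv_rev, inv_eq_of_mul_eq_one_right (q2 a),
      inv_eq_of_mul_eq_one_right (q2 b)]
  letI : CommGroup D := { (inferInstance : Group D) with mul_comm := qc }
  obtain ⟨u, hu⟩ := addA (M := Additive D) (f := MonoidHom.toAdditive (cjh hx))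
    (τ := MonoidHom.toAdditive (cjh ht)) q2 hτ hF hff (v := Additive.ofMul ⟨d, hd⟩)
    (Subtype.ext (show t * d * t⁻¹ = d by rw [e, mul_inv_cancel_right]))
  exact ⟨u.toMul, u.toMul.2, congrArg Subtype.val (hu.trans (qc _ _))⟩

end Cfsg.Agent.Lib.C4
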