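import Cfsg.Agent.Lib.C4.TC
import Cfsg.Agent.Lib.C4.A7.Main
import Cfsg.Agent.Lib.C4.B7.Main
import Cfsg.Agent.Lib.C4.A9.Main
import Cfsg.Agent.Lib.C4.A4.Main
import Cfsg.Agent.Lib.Lyons.Mod
import Cfsg.Agent.Lib.PG.Iso
import Cfsg.Agent.Lib.Spor.F4
import Cfsg.Agent.Lib.Misc.PSL34
import Cfsg.Agent.Lib.Hall.PSL2b

/-! Recognition of `L₂(7)`, `L₂(9)`, `L₃(4)` from presentations. -/

set_option autoImplicit false
set_option maxRecDepth 100000

namespace Cfsg.Agent.Lib.C4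

open Cfsg.Agent.PG Cfsg.Agent.Spor Cfsg.Agent.Lib.Lyons Cfsg.Agent.Lib.Root Subgroup Equiv
open scoped Pointwise

section Lines

variable {F : Type} [Field F] {n : ℕ}

/-- the line through a vector -/
def ln (v : Fin n → F) : Set (Fin n → F) := {u | ∃ c : F, u = c • v}

theorem smul_ln {g : Matrix.SpecialLinearGroup (Fin n) F} {v u : Fin n → F} {c : F} (hc : c ≠ 0)
    (h : g.1.mulVec v = c • u) : g • ln v = ln u := by
  have e : ∀ d : F, g • (d • v) = (d * c) • u := fun d => by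
    rw [Matrix.SpecialLinearGroup.smul_def, Matrix.smul_eq_mulVec, Matrix.mulVec_smul, h, mul_smul]
  ext x
  constructor
  · rintro ⟨_, ⟨d, rfl⟩, rfl⟩; exact ⟨_, e d⟩
  · rintro ⟨d, rfl⟩
    exact ⟨_, ⟨d * c⁻¹, rfl⟩, by rw [show (fun x => g • x) _ = _ from e _, inv_mul_cancel_right₀ hc]⟩

theorem iso_psl [Fintype F] [NeZero n] {N : ℕ} {A : List Net} (hA : okA N A = true) {a t m : ℕ}
    (V : List (Fin n → F)) (M : List (Matrix (Fin n) (Fin n) F)) (I : List (List ℕ))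
    (h0 : ∀ j < a, (M.getD j 1).det = 1) (h1 : ∀ j < a, imgsB A j 0 m (I.getD j []) = true)
    (h2 : ∀ j < a, ∀ k < m, ∃ c : F, c ≠ 0 ∧ (M.getD j 1).mulVec (V.getD k 0) = c • V.getD ((I.getD j []).getD k 0) 0)
    (h3 : ∀ i < m, ∀ j < m, (∃ c : F, V.getD i 0 = c • V.getD j 0) → i = j)
    (he : K (A.take a) 0 = K A t) (hf : FixTriv (K A t) (bset (ivl 0 (0 + m))))
    (hc : Nat.card (Matrix.ProjectiveSpecialLinearGroup (Fin n) F) ≤ Nat.card (K A t)) :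
    Nonempty (Matrix.ProjectiveSpecialLinearGroup (Fin n) F ≃* K A t) := by
  refine iso_quot_of_acts (X := fun i => ln (V.getD (i - 0) 0)) (fun σ hσ => acts_K_of_gens (fun j _ hj => ?_) σ (he.ge hσ))
    (injOn_shift (X := fun i => ln (V.getD i 0)) fun i hi j hj e => h3 i hi j hj
      (show V.getD i 0 ∈ ln _ from e ▸ ⟨1, (one_smul _ _).symm⟩)) hf (fun z hz i _ => ?_) ?_
  · have hj' : j < a := hj.trans_le (List.length_take_le _ _)
    rw [gp_take A hj']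
    exact ⟨⟨_, h0 j hj'⟩, acts_of_imgs hA (h1 j hj') (X := fun i => ln (V.getD i 0)) fun k hk =>
      (h2 j hj' k hk).elim fun c hc => smul_ln hc.1 hc.2⟩
  · obtain ⟨r, b1, b2⟩ := Matrix.SpecialLinearGroup.mem_center_iff.1 hz
    refine smul_ln (c := r) (by rintro rfl; simp [NeZero.ne n] at b1) ?_
    rw [← b2]
    ext j; simp [Matrix.mulVec_diagonal]
  · rw [card_eq_card_quotient_mul_card_subgroup (center _)]
    exact Nat.mul_le_mul_right _ hc

end Lines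

variable {Γ : Type*} [Group Γ]

theorem ev_range (β : ℕ → Γ) {a : ℕ} (ha : a ≤ 7) {w : List ℕ} (h : ∀ c ∈ w, c / 2 < a) :
    TC.ev ((List.range a).map β) w = ew β w := by
  induction w with
  | nil => rfl
  | cons c w ih =>
    have h1 := h c List.mem_cons_self
    rw [TC.ev_cons, ew_cons, ih fun d hd => h d (List.mem_cons_of_mem _ hd)]
    congr 1
    unfold TC.lv Spor.lpG
    rw [if_neg (by omega), List.getD_eq_getElem _ _ (by simpa using h1), List.getElem_map, List.getElem_range]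
    rcases Nat.mod_two_eq_zero_or_one c with e | e <;> simp [e]

theorem set_range (β : ℕ → Γ) (a : ℕ) : {x | x ∈ (List.range a).map β} = Set.range fun j : Fin a => β j := by
  ext x
  simp only [List.mem_map, List.mem_range, Set.mem_setOf_eq, Set.mem_range]
  exact ⟨fun ⟨j, h, e⟩ => ⟨⟨j, h⟩, e⟩, fun ⟨j, e⟩ => ⟨j, j.2, e⟩⟩

/-- the relators bound the order -/
def Bd (Γ : Type*) [Group Γ] (a : ℕ) (rels : List (List ℕ)) (N : ℕ) : Prop :=
  ∀ β : ℕ → Γ, (∀ w ∈ rels, ew β w = 1) → Nat.card (closure (Set.range fun j : Fin a => β j)) ≤ N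

theorem bd_of {a N : ℕ} {rels : List (List ℕ)} (ha : a ≤ 7) (hl : ∀ w ∈ rels, ∀ c ∈ w, c / 2 < a)
    (h : ∀ {γ : List Γ}, γ.length = a → (∀ w ∈ rels, TC.ev γ w = 1) → ∀ {Q : Subgroup Γ},
      (∀ y ∈ ([] : List ℕ), TC.lv γ y ∈ Q) → Nat.card (closure {x | x ∈ γ}) ≤ N * Nat.card Q) :
    Bd Γ a rels N := fun β hβ => by
  have := h (γ := (List.range a).map β) (by simp) (fun w hw => (ev_range β ha (hl w hw)).trans (hβ w hw))
    (Q := ⊥) (fun _ h => by cases h)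
  rwa [set_range, card_bot, mul_one] at this

theorem bd4 [Finite Γ] : Bd Γ 4 t40_rels 20160 := fun β hβ => by
  have h1 := bd_of (Γ := Γ) (by decide) (by decide) t3_card β fun w hw => hβ w (by revert w; decide)
  have := t40_card (γ := (List.range 4).map β) (by simp)
    (fun w hw => (ev_range β (by decide) (by revert w; decide)).trans (hβ w hw))
    (K := closure (Set.range fun j : Fin 3 => β j)) (by
      simp only [List.forall_mem_cons]
      exact ⟨subset_closure ⟨0, rfl⟩, subset_closure ⟨1, rfl⟩, subset_closure ⟨2, rfl⟩, fun _ h => by cases h⟩)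
  rw [set_range] at this
  omega

variable {G : Type*} [Group G] [Finite G]

theorem iso_tc {lg : ℕ} {A : List Net} (hA : okA (2 ^ lg) A = true) {a t N : ℕ} (he : K (A.take a) 0 = K A t)
    (hc : Nat.card (K A t) = N) (hs : IsSimpleGroup (K A t)) {rels : List (List ℕ)}
    (hl : ∀ w ∈ rels, ∀ c ∈ w, c / 2 < a) (hp : permB A lg (rels.map fun w => (w, [])) = true)
    (hb : ∀ [Finite (K A t × G)], Bd (K A t × G) a rels N) {γ : ℕ → G} (hγ : ∀ w ∈ rels, ew γ w = 1)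
    (gen : closure (Set.range fun j : Fin a => γ j) = ⊤) (z1 : γ 0 ≠ 1) : Nonempty (K A t ≃* G) := by
  have := finite_K hA t
  let δ : ℕ → K A t := fun j => ⟨gp (A.take a) j, he ▸ gp_mem_K _ (Nat.zero_le j)⟩
  have d1 : closure (Set.range fun j : Fin a => δ j) = ⊤ := by
    apply map_injective (K A t).subtype_injective
    rw [MonoidHom.map_closure, ← MonoidHom.range_eq_map, range_subtype]
    refine le_antisymm ((closure_le _).2 ?_) (he.ge.trans (K_le fun j _ hj => ?_))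
    · rintro _ ⟨y, -, rfl⟩; exact y.2
    · exact subset_closure ⟨_, ⟨⟨j, hj.trans_le (List.length_take_le _ _)⟩, rfl⟩, rfl⟩
  have d2 : ∀ w ∈ rels, ew δ w = 1 := fun w hw => Subtype.ext <| (map_ew (K A t).subtype δ w).trans <|
    (ew_congr fun c hc => gp_take A (hl w hw c hc)).trans (permB_spec hA hp (w, []) (List.mem_map_of_mem hw))
  obtain ⟨φ, hφ⟩ := hom_of_bound d1 (γ := fun j : Fin a => γ j) inferInstance
    (hc ▸ hb (fun j => (δ j, γ j)) fun w hw => by rw [ew_prod, d2 w hw, hγ w hw]; rfl)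
  have hs : φ.range = ⊤ := eq_top_iff.2 (gen ▸ (closure_le _).2 (by rintro _ ⟨j, rfl⟩; exact ⟨_, hφ j⟩))
  rcases φ.normal_ker.eq_bot_or_eq_top with e | e
  · exact ⟨MulEquiv.ofBijective φ ⟨(MonoidHom.ker_eq_bot_iff φ).1 e, MonoidHom.range_eq_top.1 hs⟩⟩
  · obtain ⟨y, hy⟩ := MonoidHom.range_eq_top.1 hs (γ 0)
    exact absurd (hy.symm.trans (MonoidHom.mem_ker.1 (e ▸ mem_top y))) z1

theorem col {a : ℕ} {rels : List (List ℕ)} (hb : Bd G (a + 1) rels 1) {γ : ℕ → G}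
    (hγ : ∀ w ∈ rels, ew γ w = 1) : γ 0 = 1 := by
  rw [← mem_bot, ← eq_bot_of_card_le _ (hb γ hγ)]
  exact subset_closure ⟨0, rfl⟩

/-- the field with nine elements -/
abbrev R9 : Type := QuadraticAlgebra (ZMod 3) (-1) 0

instance f3 : Fact (Nat.Prime 3) := ⟨by decide⟩

instance f7 : Fact (Nat.Prime 7) := ⟨by decide⟩

instance f9 : Fact (∀ r : ZMod 3, r ^ 2 ≠ -1 + 0 * r) := ⟨by decide⟩

instance fin9 : Fintype R9 := Fintype.ofEquiv _ (QuadraticAlgebra.equivProd (-1 : ZMod 3) 0).symm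

/-- points -/
def vA7 : List (Fin 2 → ZMod 7) := [![0, 1], ![1, 0], ![1, 1], ![1, 2], ![1, 3], ![1, 4], ![1, 5], ![1, 6]]

/-- matrices -/
def mA7 : List (Matrix (Fin 2) (Fin 2) (ZMod 7)) := [!![0, 1; 6, 0], !![1, 1; 5, 6], !![1, 6; 2, 6]]

/-- images -/
def iA7 : List (List ℕ) := [[1, 0, 7, 4, 3, 6, 5, 2], [7, 6, 3, 2, 5, 4, 1, 0], [2, 3, 0, 1, 5, 4, 7, 6]]

/-- points -/
def vB7 : List (Fin 2 → ZMod 7) := [![0, 1], ![1, 0], ![1, 1], ![1, 2], ![1, 3], ![1, 4], ![1, 5], ![1, 6]]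

/-- matrices -/
def mB7 : List (Matrix (Fin 2) (Fin 2) (ZMod 7)) := [!![0, 1; 6, 0], !![1, 1; 5, 6], !![1, 2; 6, 6]]

/-- images -/
def iB7 : List (List ℕ) := [[1, 0, 7, 4, 3, 6, 5, 2], [7, 6, 3, 2, 5, 4, 1, 0], [4, 7, 5, 6, 0, 2, 3, 1]]

/-- points -/
def vA9 : List (Fin 2 → R9) := [![⟨0, 0⟩, ⟨1, 0⟩], ![⟨1, 0⟩, ⟨0, 0⟩], ![⟨1, 0⟩, ⟨1, 0⟩], ![⟨1, 0⟩, ⟨2, 0⟩], ![⟨1, 0⟩, ⟨0, 1⟩], ![⟨1, 0⟩, ⟨1, 1⟩], ![⟨1, 0⟩, ⟨2, 1⟩], ![⟨1, 0⟩, ⟨0, 2⟩], ![⟨1, 0⟩, ⟨1, 2⟩], ![⟨1, 0⟩, ⟨2, 2⟩]]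

/-- matrices -/
def mA9 : List (Matrix (Fin 2) (Fin 2) (R9)) := [!![⟨0, 0⟩, ⟨1, 0⟩; ⟨2, 0⟩, ⟨0, 0⟩], !![⟨0, 0⟩, ⟨1, 1⟩; ⟨1, 2⟩, ⟨0, 0⟩], !![⟨0, 1⟩, ⟨0, 0⟩; ⟨0, 1⟩, ⟨0, 2⟩]]

/-- images -/
def iA9 : List (List ℕ) := [[1, 0, 3, 2, 4, 8, 9, 7, 5, 6], [1, 0, 7, 4, 3, 5, 8, 2, 6, 9], [0, 2, 1, 3, 8, 7, 9, 5, 4, 6]]

/-- points -/
def vA4 : List (Fin 3 → F4) := [![.z, .z, .o], ![.z, .o, .z], ![.z, .o, .o], ![.z, .o, .w], ![.z, .o, .v], ![.o, .z, .z], ![.o, .z, .o], ![.o, .z, .w], ![.o, .z, .v], ![.o, .o, .z], ![.o, .o, .o], ![.o, .o, .w], ![.o, .o, .v], ![.o, .w, .z], ![.o, .w, .o], ![.o, .w, .w], ![.o, .w, .v], ![.o, .v, .z], ![.o, .v, .o], ![.o, .v, .w], ![.o, .v, .v]]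

/-- matrices -/
def mA4 : List (Matrix (Fin 3) (Fin 3) (F4)) := [!![.z, .z, .o; .z, .o, .z; .o, .z, .z], !![.z, .z, .o; .z, .w, .z; .v, .z, .w], !![.o, .o, .o; .o, .z, .w; .v, .o, .v], !![.o, .o, .w; .o, .z, .o; .o, .v, .w]]

/-- images -/
def iA4 : List (List ℕ) := [[5, 1, 9, 17, 13, 0, 6, 8, 7, 2, 10, 20, 15, 4, 14, 12, 19, 3, 18, 16, 11], [7, 1, 15, 11, 19, 0, 6, 5, 8, 3, 14, 9, 20, 2, 18, 13, 12, 4, 10, 17, 16], [16, 6, 2, 9, 19, 12, 1, 20, 8, 3, 18, 11, 5, 15, 14, 13, 0, 17, 10, 4, 7], [18, 8, 15, 9, 4, 10, 6, 14, 1, 3, 5, 11, 16, 13, 7, 2, 12, 19, 0, 17, 20]]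

theorem isoA7 : Nonempty (Matrix.ProjectiveSpecialLinearGroup (Fin 2) (ZMod 7) ≃* K A7.A 6) :=
  iso_psl A7.hA (m := 8) vA7 mA7 iA7 (by decide +kernel) (by decide +kernel) (by decide +kernel) (by decide +kernel)
    A7.gen_eq (by apply A7.fixTriv0 <;> exact mem_bset_ivl.2 (by omega)) (by
      have := HallPSL.card_PSL2 (F := ZMod 7) (by decide)
      rw [show Fintype.card (ZMod 7) = 7 by decide] at this
      rw [A7.card0]; omega)

theorem isoB7 : Nonempty (Matrix.ProjectiveSpecialLinearGroup (Fin 2) (ZMod 7) ≃* K B7.A 6) :=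
  iso_psl B7.hA (m := 8) vB7 mB7 iB7 (by decide +kernel) (by decide +kernel) (by decide +kernel) (by decide +kernel)
    B7.gen_eq (by apply B7.fixTriv0 <;> exact mem_bset_ivl.2 (by omega)) (by
      have := HallPSL.card_PSL2 (F := ZMod 7) (by decide)
      rw [show Fintype.card (ZMod 7) = 7 by decide] at this
      rw [B7.card0]; omega)

theorem isoA9 : Nonempty (Matrix.ProjectiveSpecialLinearGroup (Fin 2) R9 ≃* K A9.A 6) :=
  iso_psl A9.hA (m := 10) vA9 mA9 iA9 (by decide +kernel) (by decide +kernel) (by decide +kernel) (by decide +kernel)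
    A9.gen_eq (by apply A9.fixTriv0 <;> exact mem_bset_ivl.2 (by omega)) (by
      have := HallPSL.card_PSL2 (F := R9) (by decide)
      rw [show Fintype.card R9 = 9 by decide] at this
      rw [A9.card0]; omega)

theorem isoA4 : Nonempty (Matrix.ProjectiveSpecialLinearGroup (Fin 3) F4 ≃* K A4.A 10) :=
  iso_psl A4.hA (m := 21) vA4 mA4 iA4 (by decide +kernel) (by decide +kernel) (by decide +kernel) (by decide +kernel)
    A4.gen_eq (by apply A4.fixTriv0 <;> exact mem_bset_ivl.2 (by omega)) (by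
      have h2 := PG.card_SL_mul 3 F4
      rw [Matrix.card_GL_field, Nat.card_eq_fintype_card (α := F4), F4.card_eq] at h2
      simp only [Fin.prod_univ_three] at h2
      norm_num at h2
      have h4 := card_eq_card_quotient_mul_card_subgroup (center (Matrix.SpecialLinearGroup (Fin 3) F4))
      rw [Misc.card_center_sl34 F4.card_eq] at h4
      change Nat.card (Matrix.SpecialLinearGroup (Fin 3) F4 ⧸ _) ≤ _
      rw [← Nat.card_eq_fintype_card] at h2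
      rw [A4.card0]; omega)

/-- normal form of a relator -/
local macro "rl" h:term : term => `(Eq.trans (by
  simp only [ew_cons, ew_nil, Spor.lpG, pow_succ, pow_zero, one_mul, mul_one, mul_assoc, mul_inv_rev, inv_inv]
  rfl) $h)

theorem rec2 {z w v : G} (z1 : z ≠ 1) (gen : closure {z, w, v} = ⊤) (zz : z * z = 1) (ww : w * w = 1)
    (vv : v * v = 1) (az : (w * z * w * z) ^ 2 = 1) (bz : (v * z * v * z) ^ 2 = 1)
    (ab : (w * z * w * (v * z * v)) ^ 2 = z) (wb : (w * (v * z * v)) ^ 3 = 1) (va : (v * (w * z * w)) ^ 3 = 1)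
    (e : (w * v) ^ 3 = 1 ∨ (w * (z * v * z)) ^ 3 = 1 ∨ ∃ d, (d = 1 ∨ d = z ∨ d = w * z * w ∨ d = w * z * w * z) ∧
      (w * (v * (d * (w * (v * z * v)) * d) * v)) ^ 2 = 1) :
    ∃ (F : Type) (_ : Field F) (_ : Fintype F), (Fintype.card F = 7 ∨ Fintype.card F = 9) ∧
      Nonempty (G ≃* Matrix.ProjectiveSpecialLinearGroup (Fin 2) F) := by
  let γ : ℕ → G := fun j => [z, w, v].getD j 1
  have g : closure (Set.range fun j : Fin 3 => γ j) = ⊤ := eq_top_iff.2 (gen ▸ closure_mono (by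
    rintro _ (rfl | rfl | rfl)
    exacts [⟨0, rfl⟩, ⟨1, rfl⟩, ⟨2, rfl⟩]))
  have r : ∀ u, ew γ u = 1 → ∀ x ∈ t20_rels.take 8 ++ [u], ew γ x = 1 := fun u hu => by
    simp only [t20_rels, List.take, List.cons_append, List.nil_append, List.forall_mem_cons]
    exact ⟨rl zz, rl ww, rl vv, rl az, rl bz, rl (mul_inv_eq_one.2 ab), rl wb, rl va, hu, fun _ h => by cases h⟩
  rcases e with e | e | ⟨d, rfl | rfl | rfl | rfl, e⟩
  · obtain ⟨f⟩ := iso_tc A7.hA A7.gen_eq A7.card0 A7.simple0 (rels := t20_rels) (by decide) (by decide +kernel)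
      (bd_of (by decide) (by decide) t20_card) (r _ (rl e)) g z1
    exact ⟨ZMod 7, inferInstance, inferInstance, Or.inl (by decide), isoA7.map fun i => f.symm.trans i.symm⟩
  · obtain ⟨f⟩ := iso_tc B7.hA B7.gen_eq B7.card0 B7.simple0 (rels := t21_rels) (by decide) (by decide +kernel)
      (bd_of (by decide) (by decide) t21_card) (r _ (rl e)) g z1
    exact ⟨ZMod 7, inferInstance, inferInstance, Or.inl (by decide), isoB7.map fun i => f.symm.trans i.symm⟩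
  · exact absurd (col (γ := γ) (bd_of (by decide) (by decide) t22_card) (r _ (rl e))) z1
  · exact absurd (col (γ := γ) (bd_of (by decide) (by decide) t23_card) (r _ (rl e))) z1
  · obtain ⟨f⟩ := iso_tc A9.hA A9.gen_eq A9.card0 A9.simple0 (rels := t24_rels) (by decide) (by decide +kernel)
      (bd_of (by decide) (by decide) t24_card) (r _ (rl e)) g z1
    exact ⟨R9, inferInstance, inferInstance, Or.inr (by decide), isoA9.map fun i => f.symm.trans i.symm⟩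
  · exact absurd (col (γ := γ) (bd_of (by decide) (by decide) t25_card) (r _ (rl e))) z1

theorem rec4 {z h w v : G} (z1 : z ≠ 1) (gen : closure {z, h, w, v} = ⊤) (zz : z * z = 1) (ww : w * w = 1)
    (vv : v * v = 1) (hh : h ^ 3 = 1) (wh : w * h * w = h⁻¹) (vh : v * h * v = h⁻¹)
    (zh : z * (h * z * h⁻¹) * (h⁻¹ * z * h) = 1) (az : (w * z * w * z) ^ 2 = 1)
    (az2 : (w * z * w * (h * z * h⁻¹)) ^ 2 = 1) (bz : (v * z * v * z) ^ 2 = 1)
    (bz2 : (v * z * v * (h * z * h⁻¹)) ^ 2 = 1) (ab : (w * z * w * (v * z * v)) ^ 2 = z)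
    (ab2 : (w * z * w * (h * (v * z * v) * h⁻¹)) ^ 2 = h⁻¹ * z * h) (wb : (w * (v * z * v)) ^ 3 = 1)
    (va : (v * (w * z * w)) ^ 3 = 1) (wv : (w * v) ^ 3 = 1 ∨ (w * v) ^ 3 = h ∨ (w * v) ^ 3 = h⁻¹) :
    ∃ (F : Type) (_ : Field F) (_ : Fintype F), Fintype.card F = 4 ∧
      Nonempty (G ≃* Matrix.ProjectiveSpecialLinearGroup (Fin 3) F) := by
  let γ : ℕ → G := fun j => [z, h, w, v].getD j 1
  have g : closure (Set.range fun j : Fin 4 => γ j) = ⊤ := eq_top_iff.2 (gen ▸ closure_mono (by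
    rintro _ (rfl | rfl | rfl | rfl)
    exacts [⟨0, rfl⟩, ⟨1, rfl⟩, ⟨2, rfl⟩, ⟨3, rfl⟩]))
  have r : ∀ u, ew γ u = 1 → ∀ x ∈ t40_rels.take 15 ++ [u], ew γ x = 1 := fun u hu => by
    simp only [t40_rels, List.take, List.cons_append, List.nil_append, List.forall_mem_cons]
    exact ⟨rl zz, rl ww, rl hh, rl (mul_inv_eq_one.2 wh), rl zh, rl az, rl az2, rl vv, rl (mul_inv_eq_one.2 vh),
      rl bz, rl bz2, rl (mul_inv_eq_one.2 ab), rl (mul_inv_eq_one.2 ab2), rl wb, rl va, hu, fun _ h => by cases h⟩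
  rcases wv with e | e | e
  · obtain ⟨f⟩ := iso_tc A4.hA A4.gen_eq A4.card0 A4.simple0 (rels := t40_rels) (by decide) (by decide +kernel)
      bd4 (r _ (rl e)) g z1
    exact ⟨F4, inferInstance, inferInstance, rfl, isoA4.map fun i => f.symm.trans i.symm⟩
  · exact absurd (col (γ := γ) (bd_of (by decide) (by decide) t41_card) (r _ (rl (mul_inv_eq_one.2 e)))) z1
  · exact absurd (col (γ := γ) (bd_of (by decide) (by decide) t42_card) (r _ (rl (mul_inv_eq_one.2 e)))) z1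

end Cfsg.Agent.Lib.C4
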